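import Mathlib

/-!
# S5916: Gauss periods of order 17 in characteristic two (helper413)
-/

set_option autoImplicit false

namespace Cfsg.Agent.H413.L16.Per

variable {k : Type*} [Field k] [CharP k 2]

/-- the quadratic residues -/
def QR : Finset ℕ := {1, 2, 4, 8, 9, 13, 15, 16}

/-- the other non-zero residues -/
def NR : Finset ℕ := {3, 5, 6, 7, 10, 11, 12, 14}

/-- the period -/
def qs (u : k) : k := ∑ j ∈ QR, u ^ j

/-- the other period -/
def qn (u : k) : k := ∑ j ∈ NR, u ^ j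

theorem two0 : (2 : k) = 0 := by
  have := CharP.cast_eq_zero k 2
  exact_mod_cast this

omit [CharP k 2] in
theorem pow_mod17 {u : k} (h : u ^ 17 = 1) (n : ℕ) : u ^ n = u ^ (n % 17) := by
  conv_lhs => rw [← Nat.mod_add_div n 17, pow_add, pow_mul, h, one_pow, mul_one]

omit [CharP k 2] in
theorem sum_perm {u : k} (h : u ^ 17 = 1) (S R : Finset ℕ) (a : ℕ) (h1 : S.image (fun j => a * j % 17) = R)
    (h2 : ∀ i ∈ S, ∀ j ∈ S, a * i % 17 = a * j % 17 → i = j) : ∑ j ∈ S, (u ^ a) ^ j = ∑ j ∈ R, u ^ j := by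
  rw [← h1, Finset.sum_image (fun i hi j hj => h2 i hi j hj)]
  refine Finset.sum_congr rfl fun j _ => ?_
  rw [← pow_mul, pow_mod17 h]

omit [CharP k 2] in
theorem qs_of_QR {u : k} (h : u ^ 17 = 1) {a : ℕ} (ha : a ∈ QR) : qs (u ^ a) = qs u := by
  have h1 : ∀ a ∈ QR, QR.image (fun j => a * j % 17) = QR ∧ ∀ i ∈ QR, ∀ j ∈ QR, a * i % 17 = a * j % 17 → i = j := by
    decide
  exact sum_perm h QR QR a (h1 a ha).1 (h1 a ha).2

omit [CharP k 2] in
theorem qs_of_NR {u : k} (h : u ^ 17 = 1) {a : ℕ} (ha : a ∈ NR) : qs (u ^ a) = qn u := by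
  have h1 : ∀ a ∈ NR, QR.image (fun j => a * j % 17) = NR ∧ ∀ i ∈ QR, ∀ j ∈ QR, a * i % 17 = a * j % 17 → i = j := by
    decide
  exact sum_perm h QR NR a (h1 a ha).1 (h1 a ha).2

omit [CharP k 2] in
theorem qn_of_QR {u : k} (h : u ^ 17 = 1) {a : ℕ} (ha : a ∈ QR) : qn (u ^ a) = qn u := by
  have h1 : ∀ a ∈ QR, NR.image (fun j => a * j % 17) = NR ∧ ∀ i ∈ NR, ∀ j ∈ NR, a * i % 17 = a * j % 17 → i = j := by
    decide
  exact sum_perm h NR NR a (h1 a ha).1 (h1 a ha).2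

omit [CharP k 2] in
theorem qs_add {z : k} (hz : IsPrimitiveRoot z 17) : 1 + qs z + qn z = 0 := by
  have h := hz.geom_sum_eq_zero (by norm_num)
  have e : Finset.range 17 = insert 0 (QR ∪ NR) := by decide
  rw [e, Finset.sum_insert (by decide), Finset.sum_union (by decide), pow_zero, ← add_assoc] at h
  exact h

theorem qs_01 {z : k} (h : z ^ 17 = 1) : qs z = 0 ∨ qs z = 1 := by
  have h1 : (qs z) ^ 2 = qs z := by
    have h2 := qs_of_QR h (a := 2) (by decide)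
    conv_rhs => rw [← h2]
    unfold qs
    rw [← frobenius_def, map_sum]
    refine Finset.sum_congr rfl fun j _ => ?_
    rw [frobenius_def, ← pow_mul, ← pow_mul, mul_comm]
  have h3 : qs z * (qs z - 1) = 0 := by linear_combination h1
  rcases mul_eq_zero.1 h3 with h4 | h4
  · exact Or.inl h4
  · exact Or.inr (sub_eq_zero.1 h4)

/-- the two polynomials of degree four -/
theorem two_cases {z : k} (hz : IsPrimitiveRoot z 17) :
    ((z + z⁻¹) ^ 4 = (z + z⁻¹) + 1 ∧ qs z = 0) ∨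
      ((z + z⁻¹) ^ 4 + (z + z⁻¹) ^ 3 + (z + z⁻¹) ^ 2 + (z + z⁻¹) + 1 = 0 ∧ qs z = 1) := by
  have h2 := two0 (k := k)
  have hz0 : z ≠ 0 := hz.ne_zero (by norm_num)
  obtain ⟨l, hl⟩ : ∃ l, l = z + z⁻¹ := ⟨_, rfl⟩
  rw [← hl]
  have hlz : l * z = z ^ 2 + 1 := by rw [hl, add_mul, inv_mul_cancel₀ hz0]; ring
  have e1 : (l ^ 4 + l + 1) * z ^ 4 = (z ^ 2 + 1) ^ 4 + (z ^ 2 + 1) * z ^ 3 + z ^ 4 := by rw [← hlz]; ring
  have e2 : (l ^ 4 + l ^ 3 + l ^ 2 + l + 1) * z ^ 4 =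
      (z ^ 2 + 1) ^ 4 + (z ^ 2 + 1) ^ 3 * z + (z ^ 2 + 1) ^ 2 * z ^ 2 + (z ^ 2 + 1) * z ^ 3 + z ^ 4 := by
    rw [← hlz]; ring
  have hg := hz.geom_sum_eq_zero (by norm_num)
  simp only [Finset.sum_range_succ, Finset.sum_range_zero] at hg
  have e3 : ((l ^ 4 + l + 1) * z ^ 4) * ((l ^ 4 + l ^ 3 + l ^ 2 + l + 1) * z ^ 4) = 0 := by
    rw [e1, e2]
    linear_combination hg + (4 * z ^ 2 + 4 * z ^ 3 + 18 * z ^ 4 + 16 * z ^ 5 + 42 * z ^ 6 + 31 * z ^ 7 + 56 * z ^ 8 +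
      31 * z ^ 9 + 42 * z ^ 10 + 16 * z ^ 11 + 18 * z ^ 12 + 4 * z ^ 13 + 4 * z ^ 14) * h2
  have h17 := hz.pow_eq_one
  have ei : z⁻¹ = z ^ 16 := by
    symm
    apply eq_inv_of_mul_eq_one_left
    rw [← pow_succ]
    exact h17
  have eq0 : qs z = l + l ^ 2 + l ^ 4 + l ^ 8 := by
    have f : ∀ x y : k, (x + y) ^ 2 = x ^ 2 + y ^ 2 := fun x y => by linear_combination (x * y) * h2
    have f2 : l ^ 2 = z ^ 2 + z ^ 15 := by
      rw [hl, ei, f]
      linear_combination z ^ 15 * h17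
    have f4 : l ^ 4 = z ^ 4 + z ^ 13 := by
      have : l ^ 4 = (l ^ 2) ^ 2 := by ring
      rw [this, f2, f]
      linear_combination z ^ 13 * h17
    have f8 : l ^ 8 = z ^ 8 + z ^ 9 := by
      have : l ^ 8 = (l ^ 4) ^ 2 := by ring
      rw [this, f4, f]
      linear_combination z ^ 9 * h17
    rw [f2, f4, f8, hl, ei]
    unfold qs QR
    rw [Finset.sum_insert (by decide), Finset.sum_insert (by decide), Finset.sum_insert (by decide),
      Finset.sum_insert (by decide), Finset.sum_insert (by decide), Finset.sum_insert (by decide),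
      Finset.sum_insert (by decide), Finset.sum_singleton]
    ring
  have hz4 : z ^ 4 ≠ 0 := pow_ne_zero 4 hz0
  rcases mul_eq_zero.1 e3 with h3 | h3
  · left
    have h4 := (mul_eq_zero.1 h3).resolve_right hz4
    refine ⟨by linear_combination h4 - (l + 1) * h2, ?_⟩
    rw [eq0]
    linear_combination (l ^ 4 - l) * h4 + (l + l ^ 2) * h2
  · right
    have h4 := (mul_eq_zero.1 h3).resolve_right hz4
    refine ⟨h4, ?_⟩
    rw [eq0]
    linear_combination (l ^ 4 - l ^ 3 + 1) * h4 - h2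

/-- `λ ^ 4 = λ + 1` means that the period vanishes -/
theorem root_iff {z : k} (hz : IsPrimitiveRoot z 17) : (z + z⁻¹) ^ 4 = (z + z⁻¹) + 1 ↔ qs z = 0 := by
  have h2 := two0 (k := k)
  rcases two_cases hz with ⟨h1, h3⟩ | ⟨h1, h3⟩
  · exact ⟨fun _ => h3, fun _ => h1⟩
  · refine ⟨fun h => ?_, fun h => absurd (h.symm.trans h3) zero_ne_one⟩
    exfalso
    obtain ⟨l, hl⟩ : ∃ l, l = z + z⁻¹ := ⟨_, rfl⟩
    rw [← hl] at h h1
    have h4 : l ^ 2 * (l + 1) = 0 := by linear_combination h1 - h - (l + 1) * h2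
    rcases mul_eq_zero.1 h4 with h5 | h5
    · have h6 : l = 0 := (pow_eq_zero_iff two_ne_zero).1 h5
      rw [h6] at h
      exact absurd h (by norm_num)
    · have h6 : l = 1 := by linear_combination h5 - h2
      rw [h6] at h
      exact absurd (show (1 : k) = 0 by linear_combination h + h2) one_ne_zero

theorem root_iff' {z : k} (hz : IsPrimitiveRoot z 17) :
    (z + z⁻¹) ^ 4 + (z + z⁻¹) ^ 3 + (z + z⁻¹) ^ 2 + (z + z⁻¹) + 1 = 0 ↔ qs z = 1 := by
  have h2 := two0 (k := k)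
  rcases two_cases hz with ⟨h1, h3⟩ | ⟨h1, h3⟩
  · refine ⟨fun h => ?_, fun h => absurd (h3.symm.trans h) zero_ne_one⟩
    exfalso
    obtain ⟨l, hl⟩ : ∃ l, l = z + z⁻¹ := ⟨_, rfl⟩
    rw [← hl] at h h1
    have h4 : l ^ 2 * (l + 1) = 0 := by linear_combination h - h1 - (l + 1) * h2
    rcases mul_eq_zero.1 h4 with h5 | h5
    · have h6 : l = 0 := (pow_eq_zero_iff two_ne_zero).1 h5
      rw [h6] at h1
      exact absurd h1 (by norm_num)
    · have h6 : l = 1 := by linear_combination h5 - h2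
      rw [h6] at h1
      exact absurd (show (1 : k) = 0 by linear_combination h1 + h2) one_ne_zero
  · exact ⟨fun _ => h3, fun _ => h1⟩

theorem cases17 : ∀ a < 17, a = 0 ∨ a ∈ QR ∨ a ∈ NR := by decide

theorem lt17 : (∀ a ∈ QR, a < 17 ∧ a ≠ 0) ∧ ∀ a ∈ NR, a < 17 ∧ a ≠ 0 := by decide

/-- **the index set of the relation** -/
theorem exists_set {z : k} (hz : IsPrimitiveRoot z 17) {Sk : Finset ℕ}
    (hS : ∀ a, a ∈ Sk ↔ a < 17 ∧ a ≠ 0 ∧ qs (z ^ a) = 0) :
    (Sk = QR ∧ qs z = 0) ∨ (Sk = NR ∧ qn z = 0) := by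
  have h17 := hz.pow_eq_one
  have h2 := two0 (k := k)
  have ha := qs_add hz
  rcases qs_01 h17 with h0 | h0
  · left
    refine ⟨?_, h0⟩
    ext a
    rw [hS]
    constructor
    · rintro ⟨h1, h3, h4⟩
      rcases cases17 a h1 with h5 | h5 | h5
      · exact absurd h5 h3
      · exact h5
      · exfalso
        rw [qs_of_NR h17 h5] at h4
        rw [h4, h0] at ha
        exact absurd (show (1 : k) = 0 by linear_combination ha) one_ne_zero
    · intro h1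
      exact ⟨(lt17.1 a h1).1, (lt17.1 a h1).2, by rw [qs_of_QR h17 h1, h0]⟩
  · right
    have h0' : qn z = 0 := by
      rw [h0] at ha
      linear_combination ha - h2
    refine ⟨?_, h0'⟩
    ext a
    rw [hS]
    constructor
    · rintro ⟨h1, h3, h4⟩
      rcases cases17 a h1 with h5 | h5 | h5
      · exact absurd h5 h3
      · exfalso
        rw [qs_of_QR h17 h5, h0] at h4
        exact one_ne_zero h4
      · exact h5
    · intro h1
      exact ⟨(lt17.2 a h1).1, (lt17.2 a h1).2, by rw [qs_of_NR h17 h1, h0']⟩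

theorem sum_pow_two (S : Finset ℕ) (g : ℕ → k) (m : ℕ) : ∑ a ∈ S, g a ^ 2 ^ m = (∑ a ∈ S, g a) ^ 2 ^ m :=
  (sum_pow_char_pow 2 m S g).symm

/-- **the sums over the index set** -/
theorem sum_set {z : k} (hz : IsPrimitiveRoot z 17) {Sk : Finset ℕ}
    (hS : ∀ a, a ∈ Sk ↔ a < 17 ∧ a ≠ 0 ∧ qs (z ^ a) = 0) (m : ℕ) :
    ∑ a ∈ Sk, z ^ (a * 2 ^ m) = 0 ∧ ∑ a ∈ Sk, (z ^ (a * 2 ^ m))⁻¹ = 0 ∧ ((Sk.card : ℕ) : k) = 0 := by
  have h17 := hz.pow_eq_one
  have h2 := two0 (k := k)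
  have e1 : ∀ S : Finset ℕ, ∑ a ∈ S, z ^ (a * 2 ^ m) = (∑ a ∈ S, z ^ a) ^ 2 ^ m := fun S => by
    rw [← sum_pow_two]
    exact Finset.sum_congr rfl fun a _ => by rw [pow_mul]
  have ei : z⁻¹ = z ^ 16 := by
    symm
    apply eq_inv_of_mul_eq_one_left
    rw [← pow_succ]
    exact h17
  have e2 : ∀ S : Finset ℕ, ∑ a ∈ S, (z ^ (a * 2 ^ m))⁻¹ = (∑ a ∈ S, (z ^ 16) ^ a) ^ 2 ^ m := fun S => by
    rw [← sum_pow_two]
    exact Finset.sum_congr rfl fun a _ => by rw [← ei, pow_mul, inv_pow, inv_pow]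
  rcases exists_set hz hS with ⟨h1, h3⟩ | ⟨h1, h3⟩
  · rw [h1, e1, e2]
    have h4 := qs_of_QR h17 (a := 16) (by decide)
    rw [h3] at h4
    refine ⟨?_, ?_, ?_⟩
    · show qs z ^ 2 ^ m = 0
      rw [h3, zero_pow (pow_ne_zero m two_ne_zero)]
    · show qs (z ^ 16) ^ 2 ^ m = 0
      rw [h4, zero_pow (pow_ne_zero m two_ne_zero)]
    · have : QR.card = 8 := by decide
      rw [this]
      push_cast
      linear_combination 4 * h2
  · rw [h1, e1, e2]
    have h4 := qn_of_QR h17 (a := 16) (by decide)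
    rw [h3] at h4
    refine ⟨?_, ?_, ?_⟩
    · show qn z ^ 2 ^ m = 0
      rw [h3, zero_pow (pow_ne_zero m two_ne_zero)]
    · show qn (z ^ 16) ^ 2 ^ m = 0
      rw [h4, zero_pow (pow_ne_zero m two_ne_zero)]
    · have : NR.card = 8 := by decide
      rw [this]
      push_cast
      linear_combination 4 * h2

/-- the condition of type R -/
theorem condR {z : k} (hz : IsPrimitiveRoot z 17) (a : ℕ) (ha : a < 17) :
    ((z ^ a + (z ^ a)⁻¹) ^ 4 = (z ^ a + (z ^ a)⁻¹) + 1) ↔ a ≠ 0 ∧ qs (z ^ a) = 0 := by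
  by_cases h0 : a = 0
  · subst h0
    rw [pow_zero, inv_one, one_add_one_eq_two, two0]
    constructor
    · intro h
      exact absurd h (by norm_num)
    · intro h
      exact absurd rfl h.1
  · have h1 : IsPrimitiveRoot (z ^ a) 17 :=
      hz.pow_of_coprime a (Nat.Coprime.symm ((Nat.Prime.coprime_iff_not_dvd (by norm_num)).2
        fun h => h0 (Nat.eq_zero_of_dvd_of_lt h ha)))
    rw [root_iff h1]
    exact ⟨fun h => ⟨h0, h⟩, fun h => h.2⟩

/-- the condition of type N -/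
theorem condN {z : k} (hz : IsPrimitiveRoot z 17) (a : ℕ) (ha : a < 17) :
    (((z ^ 3) ^ a + ((z ^ 3) ^ a)⁻¹) ^ 4 + ((z ^ 3) ^ a + ((z ^ 3) ^ a)⁻¹) ^ 3 + ((z ^ 3) ^ a + ((z ^ 3) ^ a)⁻¹) ^ 2 +
      ((z ^ 3) ^ a + ((z ^ 3) ^ a)⁻¹) + 1 = 0) ↔ a ≠ 0 ∧ qs (z ^ a) = 0 := by
  have h2 := two0 (k := k)
  by_cases h0 : a = 0
  · subst h0
    rw [pow_zero, inv_one, one_add_one_eq_two, two0]
    constructor
    · intro h
      exact absurd h (by norm_num)
    · intro h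
      exact absurd rfl h.1
  · have h1 : IsPrimitiveRoot (z ^ a) 17 :=
      hz.pow_of_coprime a (Nat.Coprime.symm ((Nat.Prime.coprime_iff_not_dvd (by norm_num)).2
        fun h => h0 (Nat.eq_zero_of_dvd_of_lt h ha)))
    have h3 : IsPrimitiveRoot ((z ^ 3) ^ a) 17 := by
      rw [← pow_mul, mul_comm, pow_mul]
      exact h1.pow_of_coprime 3 (by decide)
    rw [root_iff' h3]
    have h4 : (z ^ 3) ^ a = (z ^ a) ^ 3 := by rw [← pow_mul, mul_comm, pow_mul]
    rw [h4, qs_of_NR h1.pow_eq_one (a := 3) (by decide)]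
    have h5 := qs_add h1
    constructor
    · intro h
      refine ⟨h0, ?_⟩
      rw [h] at h5
      linear_combination h5 - h2
    · rintro ⟨-, h⟩
      rw [h] at h5
      linear_combination h5 - h2

end Cfsg.Agent.H413.L16.Per
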